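import Cfsg.Agent.H721.SR.Base
import Cfsg.Prelude.Def_Classical

/-!
# TEAM SR: the alternating groups

`rr_alt` : real elements of an alternating group are strongly real.
-/

set_option autoImplicit false

namespace Cfsg.Agent.H89.SRAlt

open Equiv Equiv.Perm Equiv.Perm.OnCycleFactors Cfsg.Agent.H721.SR

section

variable {α : Type*} [DecidableEq α] [Fintype α] {g : Perm α}

/-- the reversal of all cycles -/
noncomputable def revFun (a : Basis g) (x : α) : α :=
  if hx : g.cycleOf x ∈ g.cycleFactorsFinset then (g ^ (-(a.sameCycle hx).choose)) (a ⟨g.cycleOf x, hx⟩) else x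

theorem revFun_fixed (a : Basis g) {x : α} (hx : x ∈ Function.fixedPoints g) : revFun a x = x := by
  rw [revFun, dif_neg]
  rw [cycleOf_mem_cycleFactorsFinset_iff, notMem_support]
  exact hx

theorem revFun_zpow (a : Basis g) (c : g.cycleFactorsFinset) (m : ℤ) :
    revFun a ((g ^ m) (a c)) = (g ^ (-m)) (a c) := by
  have h : g.cycleOf ((g ^ m) (a c)) = c := by
    rw [← a.cycleOf_eq c]
    exact (SameCycle.cycleOf_eq ⟨m, rfl⟩).symm
  have hx : g.cycleOf ((g ^ m) (a c)) ∈ g.cycleFactorsFinset := h ▸ c.2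
  rw [revFun, dif_pos hx]
  have hs := (a.sameCycle hx).choose_spec
  generalize (a.sameCycle hx).choose = i at hs ⊢
  have h1 : (⟨g.cycleOf ((g ^ m) (a c)), hx⟩ : g.cycleFactorsFinset) = c := Subtype.ext h
  rw [h1] at hs ⊢
  have h2 : (g ^ (-i - m)) ((g ^ i) (a c)) = (g ^ (-i - m)) ((g ^ m) (a c)) := by rw [hs]
  rw [← mul_apply, ← zpow_add, ← mul_apply, ← zpow_add] at h2
  have h3 : -i - m + i = -m := by ring
  have h4 : -i - m + m = -i := by ring
  rw [h3, h4] at h2
  exact h2.symm

theorem revFun_invol (a : Basis g) : Function.Involutive (revFun a) := by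
  intro x
  rcases a.mem_fixedPoints_or_exists_zpow_eq x with hx | ⟨c, -, m, rfl⟩
  · rw [revFun_fixed a hx, revFun_fixed a hx]
  · rw [revFun_zpow, revFun_zpow, neg_neg]

/-- the reversal of all cycles, as a permutation -/
noncomputable def rev (a : Basis g) : Perm α := (revFun_invol a).toPerm

theorem rev_fixed (a : Basis g) {x : α} (hx : x ∈ Function.fixedPoints g) : rev a x = x := revFun_fixed a hx

theorem rev_zpow (a : Basis g) (c : g.cycleFactorsFinset) (m : ℤ) : rev a ((g ^ m) (a c)) = (g ^ (-m)) (a c) :=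
  revFun_zpow a c m

theorem rev_mul_self (a : Basis g) : rev a * rev a = 1 := by
  ext x
  exact revFun_invol a x

theorem rev_inv (a : Basis g) : (rev a)⁻¹ = rev a := inv_eq_of_mul_eq_one_left (rev_mul_self a)

theorem rev_conj (a : Basis g) : rev a * g * (rev a)⁻¹ = g⁻¹ := by
  rw [mul_inv_eq_iff_eq_mul]
  ext x
  rw [mul_apply, mul_apply]
  rcases a.mem_fixedPoints_or_exists_zpow_eq x with hx | ⟨c, -, m, rfl⟩
  · have h1 : g x = x := hx
    rw [h1, rev_fixed a hx, Perm.eq_inv_iff_eq, h1]
  · have h1 : g ((g ^ m) (a c)) = (g ^ (m + 1)) (a c) := by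
      rw [← mul_apply, add_comm, zpow_add, zpow_one]
    rw [h1, rev_zpow, rev_zpow, Perm.eq_inv_iff_eq, ← mul_apply]
    have h2 : g * g ^ (-(m + 1)) = g ^ (-m) := by
      rw [← zpow_one_add]
      congr 1
      ring
    rw [h2]

/-- the reversal inverts every cycle -/
theorem rev_cycle (a : Basis g) (c : g.cycleFactorsFinset) : rev a * c.1 * (rev a)⁻¹ = (c.1)⁻¹ := by
  have hc := (mem_cycleFactorsFinset_iff.1 c.2).2
  rw [mul_inv_eq_iff_eq_mul]
  ext x
  rw [mul_apply, mul_apply, Perm.eq_inv_iff_eq]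
  rcases a.mem_fixedPoints_or_exists_zpow_eq x with hx | ⟨d, hd, m, rfl⟩
  · have h1 : c.1 x = x := by
      by_contra h
      have h2 : x ∈ c.1.support := mem_support.2 h
      rw [hc x h2] at h
      exact h hx
    rw [h1, rev_fixed a hx, h1]
  · by_cases hdc : d = c
    · subst hdc
      have hmem : ∀ k : ℤ, (g ^ k) (a d) ∈ d.1.support := fun k =>
        zpow_apply_mem_support_of_mem_cycleFactorsFinset_iff.2 (a.mem_support_self d)
      have h1 : d.1 ((g ^ m) (a d)) = (g ^ (m + 1)) (a d) := by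
        rw [hc _ (hmem m), ← mul_apply, add_comm, zpow_add, zpow_one]
      rw [h1, rev_zpow, rev_zpow, hc _ (hmem _), ← mul_apply]
      have h2 : g * g ^ (-(m + 1)) = g ^ (-m) := by
        rw [← zpow_one_add]
        congr 1
        ring
      rw [h2]
    · have hdisj : Disjoint c.1 d.1 :=
        cycleFactorsFinset_pairwise_disjoint g c.2 d.2 (fun h => hdc (Subtype.ext h).symm)
      have hfix : ∀ k : ℤ, c.1 ((g ^ k) (a d)) = (g ^ k) (a d) := by
        intro k
        have h1 : (g ^ k) (a d) ∈ d.1.support :=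
          zpow_apply_mem_support_of_mem_cycleFactorsFinset_iff.2 (a.mem_support_self d)
        rcases hdisj ((g ^ k) (a d)) with h2 | h2
        · exact h2
        · exact absurd h2 (mem_support.1 h1)
      rw [hfix, rev_zpow, hfix]

/-- the reversal commutes with the permutations of the cycles -/
theorem rev_comm (a : Basis g) (τ : range_toPermHom' g) : Commute (a.ofPermHom τ) (rev a) := by
  ext x
  rw [mul_apply, mul_apply, Basis.ofPermHom_apply, Basis.ofPermHom_apply]
  rcases a.mem_fixedPoints_or_exists_zpow_eq x with hx | ⟨c, hc, m, rfl⟩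
  · rw [rev_fixed a hx, Basis.ofPermHomFun_apply_of_mem_fixedPoints a τ hx, rev_fixed a hx]
  · have hmem : ∀ k : ℤ, (g ^ k) (a c) ∈ c.1.support := fun k =>
      zpow_apply_mem_support_of_mem_cycleFactorsFinset_iff.2 (a.mem_support_self c)
    rw [rev_zpow, Basis.ofPermHomFun_apply_of_cycleOf_mem a τ (hmem _) rfl,
      Basis.ofPermHomFun_apply_of_cycleOf_mem a τ (hmem _) rfl, rev_zpow]

theorem exists_of_comm (a : Basis g) {k : Perm α} (hk : k * k = 1) (hc : Commute k (rev a)) (hg : Commute k g)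
    (hs : sign k = -1) : ∃ t : Perm α, t * t = 1 ∧ t * g * t⁻¹ = g⁻¹ ∧ sign t = 1 := by
  rcases Int.units_eq_one_or (sign (rev a)) with h | h
  · exact ⟨rev a, rev_mul_self a, rev_conj a, h⟩
  · refine ⟨k * rev a, ?_, ?_, ?_⟩
    · calc k * rev a * (k * rev a) = k * (rev a * k) * rev a := by group
        _ = k * (k * rev a) * rev a := by rw [hc.eq]
        _ = (k * k) * (rev a * rev a) := by group
        _ = 1 := by rw [hk, rev_mul_self, one_mul]
    · calc k * rev a * g * (k * rev a)⁻¹ = k * (rev a * g * (rev a)⁻¹) * k⁻¹ := by group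
        _ = k * g⁻¹ * k⁻¹ := by rw [rev_conj]
        _ = g⁻¹ := by rw [hg.inv_right.eq, mul_inv_cancel_right]
    · rw [map_mul, hs, h]
      rfl

/-- **both signs occur** if the centraliser has odd permutations -/
theorem exists_even (h : ¬ Subgroup.centralizer {g} ≤ alternatingGroup α) :
    ∃ t : Perm α, t * t = 1 ∧ t * g * t⁻¹ = g⁻¹ ∧ sign t = 1 := by
  obtain ⟨a⟩ := Basis.nonempty g
  by_cases hodd : ∀ i ∈ g.cycleType, Odd i
  swap
  · push Not at hodd
    obtain ⟨i, hi, hi2⟩ := hodd
    rw [cycleType_def g, Multiset.mem_map] at hi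
    obtain ⟨c, hc, rfl⟩ := hi
    rw [← Finset.mem_def] at hc
    have hs : sign c = -1 := by
      have he : Even c.support.card := Nat.not_odd_iff_even.1 hi2
      rw [IsCycle.sign (mem_cycleFactorsFinset_iff.1 hc).1, he.neg_one_pow]
    rcases Int.units_eq_one_or (sign (rev a)) with h | h
    · exact ⟨rev a, rev_mul_self a, rev_conj a, h⟩
    · have hrc : rev a * c * (rev a)⁻¹ = c⁻¹ := rev_cycle a ⟨c, hc⟩
      have hgc : Commute c g := self_mem_cycle_factors_commute hc
      refine ⟨c * rev a, ?_, ?_, ?_⟩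
      · calc c * rev a * (c * rev a) = c * (rev a * c * (rev a)⁻¹) * (rev a * rev a) := by group
          _ = 1 := by rw [hrc, rev_mul_self, mul_inv_cancel, one_mul]
      · calc c * rev a * g * (c * rev a)⁻¹ = c * (rev a * g * (rev a)⁻¹) * c⁻¹ := by group
          _ = c * g⁻¹ * c⁻¹ := by rw [rev_conj]
          _ = g⁻¹ := by rw [hgc.inv_right.eq, mul_inv_cancel_right]
      · rw [map_mul, hs, h]
        rfl
  by_cases hfix : Fintype.card α ≤ g.cycleType.sum + 1
  swap
  · obtain ⟨x, y, hxy⟩ : ∃ x y : Function.fixedPoints g, x ≠ y := by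
      have h1 : 1 < Fintype.card (Function.fixedPoints g) := by
        rw [card_fixedPoints g]
        have h2 : g.cycleType.sum ≤ Fintype.card α := by
          rw [sum_cycleType]
          exact Finset.card_le_univ _
        omega
      exact Fintype.exists_pair_of_one_lt_card h1
    have hx : g x.1 = x.1 := x.2
    have hy : g y.1 = y.1 := y.2
    refine exists_of_comm a (k := swap x.1 y.1) (swap_mul_self _ _) ?_ ?_ ?_
    · have h1 := swap_apply_apply (rev a) x.1 y.1
      rw [rev_fixed a x.2, rev_fixed a y.2] at h1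
      rw [commute_iff_eq]
      conv_lhs => rw [h1]
      rw [inv_mul_cancel_right]
    · have h1 := swap_apply_apply g x.1 y.1
      rw [hx, hy] at h1
      rw [commute_iff_eq]
      conv_lhs => rw [h1]
      rw [inv_mul_cancel_right]
    · exact sign_swap (fun h => hxy (Subtype.ext h))
  have hcount : ¬ ∀ i, g.cycleType.count i ≤ 1 := fun h1 => h (centralizer_le_alternating_iff.2 ⟨hodd, hfix, h1⟩)
  rw [← Multiset.nodup_iff_count_le_one, Equiv.Perm.cycleType_def] at hcount
  rw [Multiset.nodup_map_iff_inj_on g.cycleFactorsFinset.nodup] at hcount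
  simp only [Function.comp_apply, ← Finset.mem_def] at hcount
  push Not at hcount
  obtain ⟨c, hc, d, hd, hm, hm'⟩ := hcount
  let τ : Equiv.Perm g.cycleFactorsFinset := Equiv.swap ⟨c, hc⟩ ⟨d, hd⟩
  have hτ : τ ∈ range_toPermHom' g := fun x ↦ by
    by_cases hx : x = ⟨c, hc⟩
    · rw [hx, Equiv.swap_apply_left]; exact hm.symm
    by_cases hx' : x = ⟨d, hd⟩
    · rw [hx', Equiv.swap_apply_right]; exact hm
    · rw [Equiv.swap_apply_of_ne_of_ne hx hx']
  have hk2 : a.ofPermHom ⟨τ, hτ⟩ * a.ofPermHom ⟨τ, hτ⟩ = 1 := by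
    rw [← map_mul]
    have h1 : (⟨τ, hτ⟩ : range_toPermHom' g) * ⟨τ, hτ⟩ = 1 := Subtype.ext (Equiv.swap_mul_self _ _)
    rw [h1, map_one]
  refine exists_of_comm a hk2 (rev_comm a _) (Subgroup.mem_centralizer_singleton_iff.1 (a.ofPermHom_mem_centralizer _))
    ?_
  have hk_cT : (a.ofPermHom ⟨τ, hτ⟩).cycleType =
      Multiset.replicate (Multiset.card (a.ofPermHom ⟨τ, hτ⟩).cycleType) 2 := by
    rw [Multiset.eq_replicate_card, ← pow_prime_eq_one_iff, pow_two]
    exact hk2
  rw [sign_of_cycleType, hk_cT]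
  simp only [Multiset.sum_replicate, smul_eq_mul, Multiset.card_replicate, pow_add,
    even_two, Even.mul_left, Even.neg_pow, one_pow, one_mul]
  apply Odd.neg_one_pow
  apply hodd
  have this : Multiset.card (a.ofPermHom ⟨τ, hτ⟩).cycleType * 2 = (a.ofPermHom ⟨τ, hτ⟩).support.card := by
    rw [← sum_cycleType, hk_cT]
    simp
  have that : Multiset.card (a.ofPermHom ⟨τ, hτ⟩).cycleType = c.support.card := by
    rw [← Nat.mul_left_inj (a := 2) (by simp), this]
    rw [Basis.card_ofPermHom_support]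
    have H : (⟨c, hc⟩ : g.cycleFactorsFinset) ≠ ⟨d, hd⟩ := Subtype.coe_ne_coe.mp hm'
    simp only [τ, support_swap H]
    rw [Finset.sum_insert (by simp only [Finset.mem_singleton, H, not_false_eq_true]),
      Finset.sum_singleton, hm, mul_two]
  rw [that]
  simp only [cycleType_def, Multiset.mem_map]
  exact ⟨c, hc, by simp only [Function.comp_apply]⟩

end

/-- real elements of alternating groups are strongly real -/
theorem sr_alternating {α : Type*} [DecidableEq α] [Fintype α] (g : alternatingGroup α) (h : IsConj g g⁻¹) : SR g := by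
  by_cases hC : Subgroup.centralizer {(g : Perm α)} ≤ alternatingGroup α
  · obtain ⟨x, hx⟩ := isConj_iff.1 h
    obtain ⟨a⟩ := Basis.nonempty (g : Perm α)
    have hx2 : (x : Perm α) * g * (x : Perm α)⁻¹ = (g : Perm α)⁻¹ := congrArg Subtype.val hx
    have hc : rev a * (x : Perm α) ∈ Subgroup.centralizer {(g : Perm α)} := by
      rw [Subgroup.mem_centralizer_singleton_iff, ← mul_inv_eq_iff_eq_mul]
      calc rev a * (x : Perm α) * g * (rev a * (x : Perm α))⁻¹ =
          rev a * ((x : Perm α) * g * (x : Perm α)⁻¹) * (rev a)⁻¹ := by group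
        _ = rev a * (g : Perm α)⁻¹ * (rev a)⁻¹ := by rw [hx2]
        _ = (rev a * (g : Perm α) * (rev a)⁻¹)⁻¹ := by group
        _ = g := by rw [rev_conj, inv_inv]
    have h1 := hC hc
    have h2 : rev a ∈ alternatingGroup α := by
      have h3 := (alternatingGroup α).mul_mem h1 ((alternatingGroup α).inv_mem x.2)
      rwa [mul_inv_cancel_right] at h3
    exact ⟨⟨rev a, h2⟩, Subtype.ext (rev_mul_self a), Subtype.ext (rev_conj a)⟩
  · obtain ⟨t, h1, h2, h3⟩ := exists_even hC
    exact ⟨⟨t, mem_alternatingGroup.2 h3⟩, Subtype.ext h1, Subtype.ext h2⟩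

/-- **SR-ALT** -/
theorem rr_alt {S : Type*} [Group S] (h : Cfsg.IsAlternating S) : RR S := by
  obtain ⟨n, -, ⟨e⟩⟩ := h
  exact RR.congr e.symm (RR.of_real fun g hg => sr_alternating g hg)

end Cfsg.Agent.H89.SRAlt
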